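import Cfsg.Agent.Lib.Coprime.PSolvable
import Cfsg.Agent.Lib.Coprime.Three
import Mathlib

/-!
Elements of `q`-power order acting on `p`-subgroups; counting in a factorization;
`p`-solubility of sections.
-/

set_option autoImplicit false

universe u

namespace Cfsg.Agent.Lib.AutoSyl.Basic

open Cfsg Cfsg.Agent.Lib.Coprime.PSolvable

variable {G : Type*} [Group G] {p q : ℕ}

/-- `y` has `q`-power order. -/
def QE (q : ℕ) (y : G) : Prop := ∃ n : ℕ, y ^ q ^ n = 1

theorem QE.pow {y : G} (h : QE q y) (k : ℕ) : QE q (y ^ k) := by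
  obtain ⟨n, hn⟩ := h
  exact ⟨n, by rw [← pow_mul, mul_comm, pow_mul, hn, one_pow]⟩

theorem QE.map {G' : Type*} [Group G'] (f : G →* G') {y : G} (h : QE q y) : QE q (f y) := by
  obtain ⟨n, hn⟩ := h
  exact ⟨n, by rw [← map_pow, hn, map_one]⟩

theorem eq_one_of_QE_of_pow (hpq : Nat.Coprime p q) {y : G} (h : QE q y) {a : ℕ}
    (ha : y ^ p ^ a = 1) : y = 1 := by
  obtain ⟨n, hn⟩ := h
  have h1 := orderOf_dvd_of_pow_eq_one hn
  have h2 := orderOf_dvd_of_pow_eq_one ha
  have h3 : Nat.Coprime (p ^ a) (q ^ n) := Nat.Coprime.pow _ _ hpq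
  have h4 : orderOf y ∣ 1 := by
    rw [← Nat.coprime_iff_gcd_eq_one.mp h3]
    exact Nat.dvd_gcd h2 h1
  exact orderOf_eq_one_iff.mp (Nat.dvd_one.mp h4)

/-- A `q`-element in a coset of the kernel. -/
theorem exists_q_part [hq : Fact q.Prime] {Γ T : Type*} [Group Γ] [Finite Γ] [Group T] (π : Γ →* T)
    (x : Γ) {m : ℕ} (hx : π x ^ q ^ m = 1) : ∃ k : ℕ, π (x ^ k) = π x ∧ QE q (x ^ k) := by
  have hn : orderOf x ≠ 0 := (orderOf_pos x).ne'
  obtain ⟨e, r, hr, hor⟩ := Nat.exists_eq_pow_mul_and_not_dvd hn q hq.out.ne_one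
  have hcop : Nat.Coprime r q := ((Nat.Prime.coprime_iff_not_dvd hq.out).mpr hr).symm
  have hqe : ∀ s : ℕ, QE q (x ^ (r * s)) := by
    intro s
    refine ⟨e, ?_⟩
    rw [← pow_mul, show r * s * q ^ e = (q ^ e * r) * s by ring, ← hor, pow_mul, pow_orderOf_eq_one,
      one_pow]
  rcases Nat.eq_zero_or_pos m with rfl | hm
  · refine ⟨r * orderOf x, ?_, hqe _⟩
    have h1 : π x = 1 := by simpa using hx
    rw [map_pow, h1, one_pow]
  · have h1 : 1 < q ^ m := Nat.one_lt_pow hm.ne' hq.out.one_lt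
    obtain ⟨s, -, hs⟩ := Nat.exists_mul_mod_eq_one_of_coprime (hcop.pow_right m) h1
    exact ⟨r * s, by rw [map_pow, pow_eq_pow_mod (r * s) hx, hs, pow_one], hqe s⟩

/-- The centralizer of `K` is normal in the normalizer of `K`. -/
theorem centralizer_subgroupOf_normal (K : Subgroup G) :
    ((Subgroup.centralizer (K : Set G)).subgroupOf (Subgroup.normalizer (K : Set G))).Normal :=
  inferInstance

/-- `y` is a `q`-element moving the `p`-subgroup `K`. -/
def Mv (q : ℕ) (K : Subgroup G) (y : G) : Prop :=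
  y ∈ Subgroup.normalizer (K : Set G) ∧ y ∉ Subgroup.centralizer (K : Set G) ∧ QE q y

/-- The family of pairs. -/
def Fam (p q : ℕ) (K S : Subgroup G) : Prop :=
  IsPGroup p S ∧ K ≤ S ∧ S ≤ Subgroup.normalizer (K : Set G) ∧ ∃ y, Mv q K y

theorem dvd_index_iff [Finite G] [hq : Fact q.Prime] (K : Subgroup G) :
    q ∣ ((Subgroup.centralizer (K : Set G)).subgroupOf (Subgroup.normalizer (K : Set G))).index ↔
      ∃ y, Mv q K y := by
  set C' := (Subgroup.centralizer (K : Set G)).subgroupOf (Subgroup.normalizer (K : Set G)) with hC'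
  constructor
  · intro hd
    have hd' : q ∣ Nat.card (↥(Subgroup.normalizer (K : Set G)) ⧸ C') := hd
    obtain ⟨x, hx⟩ := exists_prime_orderOf_dvd_card' q hd'
    obtain ⟨n, rfl⟩ := QuotientGroup.mk'_surjective C' x
    have h1 : QuotientGroup.mk' C' n ^ q ^ 1 = 1 := by
      rw [pow_one, ← hx]; exact pow_orderOf_eq_one _
    obtain ⟨k, hk, hqe⟩ := exists_q_part (QuotientGroup.mk' C') n h1
    refine ⟨((n ^ k : ↥(Subgroup.normalizer (K : Set G))) : G), (n ^ k).2, ?_, ?_⟩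
    · intro hmem
      have h2 : (n ^ k) ∈ C' := hmem
      have h3 : QuotientGroup.mk' C' (n ^ k) = 1 := (QuotientGroup.eq_one_iff _).mpr h2
      rw [hk] at h3
      rw [h3, orderOf_one] at hx
      exact hq.out.one_lt.ne hx
    · exact hqe.map (Subgroup.subtype _)
  · rintro ⟨y, hyN, hyC, n, hn⟩
    set z : ↥(Subgroup.normalizer (K : Set G)) := ⟨y, hyN⟩ with hz
    have h1 : (QuotientGroup.mk' C' z) ^ q ^ n = 1 := by
      rw [← map_pow]
      have : z ^ q ^ n = 1 := Subtype.ext (by simpa using hn)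
      rw [this, map_one]
    have h2 : QuotientGroup.mk' C' z ≠ 1 := by
      intro h
      exact hyC ((QuotientGroup.eq_one_iff z).mp h)
    have h3 : orderOf (QuotientGroup.mk' C' z) ∣ q ^ n := orderOf_dvd_of_pow_eq_one h1
    obtain ⟨j, -, hj⟩ := (Nat.dvd_prime_pow hq.out).mp h3
    have hj0 : j ≠ 0 := by
      rintro rfl
      rw [pow_zero, orderOf_eq_one_iff] at hj
      exact h2 hj
    have h4 : orderOf (QuotientGroup.mk' C' z) ∣ C'.index := orderOf_dvd_natCard _
    rw [hj] at h4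
    exact (dvd_pow_self q hj0).trans h4

theorem mem_map_conj {g x : G} {K : Subgroup G} :
    x ∈ K.map (MulAut.conj g).toMonoidHom ↔ g⁻¹ * x * g ∈ K := by
  constructor
  · rintro ⟨k, hk, rfl⟩
    simpa [mul_assoc] using hk
  · intro h
    exact ⟨_, h, by simp [mul_assoc]⟩

theorem Mv.conj {K : Subgroup G} {y : G} (h : Mv q K y) (g : G) :
    Mv q (K.map (MulAut.conj g).toMonoidHom) (g * y * g⁻¹) := by
  obtain ⟨h1, h2, h3⟩ := h
  refine ⟨?_, ?_, ?_⟩
  · rw [Subgroup.mem_normalizer_iff]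
    intro x
    rw [mem_map_conj, mem_map_conj]
    have h4 := (Subgroup.mem_normalizer_iff.mp h1) (g⁻¹ * x * g)
    have h5 : y * (g⁻¹ * x * g) * y⁻¹ = g⁻¹ * (g * y * g⁻¹ * x * (g * y * g⁻¹)⁻¹) * g := by group
    rw [h5] at h4
    exact h4
  · intro hmem
    apply h2
    rw [Subgroup.mem_centralizer_iff] at hmem ⊢
    intro k hk
    have h4 := hmem (g * k * g⁻¹) (mem_map_conj.mpr (by simpa [mul_assoc] using hk))
    have h5 : g⁻¹ * (g * k * g⁻¹ * (g * y * g⁻¹)) * g = k * y := by group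
    have h6 : g⁻¹ * ((g * y * g⁻¹) * (g * k * g⁻¹)) * g = y * k := by group
    rw [← h5, h4, h6]
  · exact h3.map (MulAut.conj g).toMonoidHom

theorem Fam.conj {K S : Subgroup G} (h : Fam p q K S) (g : G) :
    Fam p q (K.map (MulAut.conj g).toMonoidHom) (S.map (MulAut.conj g).toMonoidHom) := by
  obtain ⟨h1, h2, h3, y, hy⟩ := h
  refine ⟨h1.map _, Subgroup.map_mono h2, ?_, _, hy.conj g⟩
  rintro _ ⟨s, hs, rfl⟩
  rw [Subgroup.mem_normalizer_iff]
  intro x
  rw [mem_map_conj, mem_map_conj]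
  have h4 := (Subgroup.mem_normalizer_iff.mp (h3 hs)) (g⁻¹ * x * g)
  have h5 : s * (g⁻¹ * x * g) * s⁻¹ =
      g⁻¹ * ((MulAut.conj g).toMonoidHom s * x * ((MulAut.conj g).toMonoidHom s)⁻¹) * g := by
    simp only [MulEquiv.coe_toMonoidHom, MulAut.conj_apply]
    group
  rw [h5] at h4
  exact h4

/-- In a factorization `A = U V`, the index of `V` divides `|U|`. -/
theorem index_dvd_card_of_factor {A : Type*} [Group A] [Finite A] (U V : Subgroup A)
    (h : ∀ a, ∃ u ∈ U, ∃ v ∈ V, a = u * v) : V.index ∣ Nat.card U := by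
  set x : A ⧸ V := ((1 : A) : A ⧸ V) with hx
  have horb : MulAction.orbit U x = Set.univ := by
    ext y
    simp only [Set.mem_univ, iff_true]
    induction y using QuotientGroup.induction_on with
    | H a =>
      obtain ⟨u, hu, v, hv, rfl⟩ := h a
      refine ⟨⟨u, hu⟩, ?_⟩
      show ((u * (1 : A) : A) : A ⧸ V) = _
      rw [mul_one]
      exact (QuotientGroup.eq.mpr (by simpa using hv)).symm
  have h1 := MulAction.index_stabilizer U x
  rw [horb, Set.ncard_univ] at h1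
  have h2 : V.index = Nat.card (A ⧸ V) := rfl
  rw [h2, ← h1]
  exact Subgroup.index_dvd_card _

theorem card_dvd_of_factor {A : Type*} [Group A] [Finite A] (U V : Subgroup A)
    (h : ∀ a, ∃ u ∈ U, ∃ v ∈ V, a = u * v) : Nat.card A ∣ Nat.card U * Nat.card V := by
  have h1 := index_dvd_card_of_factor U V h
  have h2 := Subgroup.card_mul_index V
  rw [← h2, mul_comm]
  exact Nat.mul_dvd_mul_right h1 _

/-- In a factorization modulo a normal subgroup, a `q`-element outside the kernel can be found in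
one of the factors. -/
theorem exists_QE_of_factor [hq : Fact q.Prime] {Γ A : Type*} [Group Γ] [Finite Γ] [Group A]
    [Finite A] (φ : Γ →* A) (hφ : Function.Surjective φ) (L₁ L₂ : Subgroup Γ)
    (h : ∀ g, ∃ c ∈ L₁, ∃ n ∈ L₂, φ g = φ c * φ n) (hd : q ∣ Nat.card A) :
    ∃ y, (y ∈ L₁ ∨ y ∈ L₂) ∧ φ y ≠ 1 ∧ QE q y := by
  have hfac : ∀ a, ∃ u ∈ L₁.map φ, ∃ v ∈ L₂.map φ, a = u * v := by
    intro a
    obtain ⟨g, rfl⟩ := hφ a
    obtain ⟨c, hc, n, hn, he⟩ := h g
    exact ⟨φ c, ⟨c, hc, rfl⟩, φ n, ⟨n, hn, rfl⟩, he⟩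
  have hcard := hd.trans (card_dvd_of_factor _ _ hfac)
  have key : ∀ L : Subgroup Γ, q ∣ Nat.card (L.map φ) → ∃ y ∈ L, φ y ≠ 1 ∧ QE q y := by
    intro L hL
    obtain ⟨a, ha⟩ := exists_prime_orderOf_dvd_card' q hL
    obtain ⟨c, hc, hca⟩ := a.2
    have h1 : φ c ^ q ^ 1 = 1 := by
      rw [hca, pow_one]
      have := pow_orderOf_eq_one a
      rw [ha] at this
      simpa using congrArg Subtype.val this
    obtain ⟨k, hk, hqe⟩ := exists_q_part φ c h1
    refine ⟨c ^ k, pow_mem hc k, ?_, hqe⟩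
    rw [hk, hca]
    intro h0
    have h2 : a = 1 := Subtype.ext h0
    rw [h2, orderOf_one] at ha
    exact hq.out.one_lt.ne ha
  rcases (Nat.Prime.dvd_mul hq.out).mp hcard with h1 | h1
  · obtain ⟨y, hy, h2, h3⟩ := key L₁ h1
    exact ⟨y, Or.inl hy, h2, h3⟩
  · obtain ⟨y, hy, h2, h3⟩ := key L₂ h1
    exact ⟨y, Or.inr hy, h2, h3⟩

/-- A section of a `p`-soluble group is `p`-soluble. -/
theorem isPSolvable_of_section [hp : Fact p.Prime] {B A A' : Type*} [Group B] [Group A] [Group A']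
    (f : B →* A) (g : B →* A') (hg : Function.Surjective g) (hker : f.ker ≤ g.ker)
    (hA : IsPSolvable p A) : IsPSolvable p A' := by
  have h1 : IsPSolvable p f.range := isPSolvable_subgroup hp.out f.range hA
  have h2 : IsPSolvable p (B ⧸ f.ker) :=
    isPSolvable_of_mulEquiv hp.out (QuotientGroup.quotientKerEquivRange f).symm h1
  refine isPSolvable_of_surjective hp.out (QuotientGroup.lift f.ker g hker) ?_ h2
  intro a
  obtain ⟨b, rfl⟩ := hg a
  exact ⟨QuotientGroup.mk b, rfl⟩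

end Cfsg.Agent.Lib.AutoSyl.Basic
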