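import Cfsg.Agent.Lib.Coprime.PSolvable
import Cfsg.Agent.Lib.Coprime.InvSylow
import Cfsg.Agent.Lib.Basic.SylowUtil
import Mathlib

/-!
In a finite `p`-soluble group, every `p`-subgroup lies in a `{p, q}`-subgroup of index prime to `q`.
-/

set_option autoImplicit false

universe u

namespace Cfsg.Agent.Lib.AutoSyl.HallPQ

open Cfsg Cfsg.Agent.Lib.Coprime.PSolvable

variable {p q : ℕ} [hp : Fact p.Prime] [hq : Fact q.Prime]

/-- All prime divisors of `n` are `p` or `q`. -/
def PQ (p q n : ℕ) : Prop := ∀ r : ℕ, r.Prime → r ∣ n → r = p ∨ r = q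

theorem card_quotient_lt' {X : Type*} [Group X] [Finite X] (N : Subgroup X) [N.Normal] (h : N ≠ ⊥) :
    Nat.card (X ⧸ N) < Nat.card X :=
  Cfsg.Agent.Lib.Solvable.MinimalNormal.card_quotient_lt N h

theorem card_comap_mk' {X : Type*} [Group X] [Finite X] (N : Subgroup X) [N.Normal]
    (Sb : Subgroup (X ⧸ N)) :
    Nat.card (Sb.comap (QuotientGroup.mk' N)) = Nat.card Sb * Nat.card N :=
  Cfsg.Agent.Lib.Solvable.Hall.card_comap_mk N Sb

theorem isSolvable_of_isPGroup {A : Type*} [Group A] [Finite A] (hA : IsPGroup p A) :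
    Group.IsSolvable A := by
  haveI := hA.isNilpotent
  infer_instance

/-- Every `p`-subgroup lies in a `{p,q}`-subgroup of index prime to `q`. -/
theorem hallPQ (hpq : p ≠ q) {X : Type u} [Group X] [Finite X] (hX : IsPSolvable p X)
    (S : Subgroup X) (hS : IsPGroup p S) :
    ∃ K : Subgroup X, S ≤ K ∧ PQ p q (Nat.card K) ∧ ¬ q ∣ K.index := by
  induction hn : Nat.card X using Nat.strong_induction_on generalizing X with
  | _ n ih =>
  subst hn
  have hqp : q.Prime := hq.out
  have hpp : p.Prime := hp.out
  rcases subsingleton_or_nontrivial X with hG | hG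
  · refine ⟨⊤, le_top, ?_, ?_⟩
    · intro r hr hd
      have h1 : Nat.card (⊤ : Subgroup X) = 1 := by
        rw [Subgroup.card_top]; exact Nat.card_of_subsingleton (1 : X)
      rw [h1] at hd
      exact absurd (Nat.dvd_one.mp hd) hr.one_lt.ne'
    · rw [Subgroup.index_top]
      exact fun h => hqp.one_lt.ne' (Nat.dvd_one.mp h)
  obtain ⟨N, hNn, hNbot, hNgood⟩ := exists_normal_good hX hG
  rcases hNgood with ⟨j, hj⟩ | hc
  · -- `N` is a `p`-group
    obtain ⟨Kb, hKbS, hKbPQ, hKbq⟩ := ih _ (card_quotient_lt' N hNbot) (isPSolvable_quotient hpp N hX)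
      (S.map (QuotientGroup.mk' N)) (hS.map _) rfl
    refine ⟨Kb.comap (QuotientGroup.mk' N), fun s hs => hKbS ⟨s, hs, rfl⟩, ?_, ?_⟩
    · intro r hr hd
      rw [card_comap_mk', hj] at hd
      rcases (Nat.Prime.dvd_mul hr).mp hd with h | h
      · exact hKbPQ r hr h
      · exact Or.inl ((Nat.prime_dvd_prime_iff_eq hr hpp).mp (hr.dvd_of_dvd_pow h))
    · rwa [Subgroup.index_comap_of_surjective _ (QuotientGroup.mk'_surjective N)]
  · by_cases hqN : q ∣ Nat.card N
    · -- a Sylow `q`-subgroup of `N` normalized by `S`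
      have hSN : S ≤ Subgroup.normalizer (N : Set X) := by
        intro s _
        rw [Subgroup.mem_normalizer_iff]
        intro x
        exact ⟨fun h => hNn.conj_mem x h s, fun h => by
          have := hNn.conj_mem _ h s⁻¹
          simpa [mul_assoc] using this⟩
      have hcop : (Nat.card S).Coprime (Nat.card N) := by
        obtain ⟨a, ha⟩ := IsPGroup.iff_card.mp hS
        rw [ha]
        exact Nat.Coprime.pow_left _ hc.symm
      obtain ⟨Q₁, hQ₁⟩ := Cfsg.Agent.Lib.Coprime.InvSylow.exists_invariant_sylow hSN hcop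
        (Or.inl (isSolvable_of_isPGroup hS)) q
      set Q : Subgroup X := (Q₁ : Subgroup N).map N.subtype with hQ
      have hQp : IsPGroup q Q := Q₁.2.map _
      have hQbot : Q ≠ ⊥ := by
        intro h
        have h1 : (Q₁ : Subgroup N) = ⊥ := by
          rw [hQ] at h
          exact (Subgroup.map_eq_bot_iff_of_injective _ N.subtype_injective).mp h
        have h2 := Q₁.not_dvd_index
        rw [h1, Subgroup.index_bot] at h2
        exact h2 hqN
      set N₁ : Subgroup X := Subgroup.normalizer (Q : Set X) with hN₁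
      have hQN₁ : Q ≤ N₁ := Subgroup.le_normalizer
      set Q' : Subgroup N₁ := Q.subgroupOf N₁ with hQ'
      haveI hQ'n : Q'.Normal := Subgroup.normal_subgroupOf_of_le_normalizer le_rfl
      have hQ'bot : Q' ≠ ⊥ := by
        intro h
        apply hQbot
        have h1 : Q'.map N₁.subtype = Q := by
          rw [hQ', Subgroup.subgroupOf_map_subtype, inf_of_le_left hQN₁]
        rw [← h1, h, Subgroup.map_bot]
      have hlt : Nat.card (↥N₁ ⧸ Q') < Nat.card X :=
        (card_quotient_lt' Q' hQ'bot).trans_le (Subgroup.card_le_card_group N₁)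
      obtain ⟨Kb, hKbS, hKbPQ, hKbq⟩ := ih _ hlt
        (isPSolvable_quotient hpp Q' (isPSolvable_subgroup hpp N₁ hX))
        ((S.subgroupOf N₁).map (QuotientGroup.mk' Q'))
        ((IsPGroup.comap_subtype hS).map _) rfl
      set K₁ : Subgroup N₁ := Kb.comap (QuotientGroup.mk' Q') with hK₁
      refine ⟨K₁.map N₁.subtype, ?_, ?_, ?_⟩
      · intro s hs
        refine ⟨⟨s, hQ₁ hs⟩, ?_, rfl⟩
        exact hKbS ⟨⟨s, hQ₁ hs⟩, hs, rfl⟩
      · intro r hr hd
        rw [Nat.card_congr (Subgroup.equivMapOfInjective K₁ N₁.subtype N₁.subtype_injective).toEquiv.symm,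
          hK₁, card_comap_mk'] at hd
        rcases (Nat.Prime.dvd_mul hr).mp hd with h | h
        · exact hKbPQ r hr h
        · right
          have hQ'p : IsPGroup q Q' := IsPGroup.comap_subtype hQp
          obtain ⟨a, ha⟩ := IsPGroup.iff_card.mp hQ'p
          rw [ha] at h
          exact (Nat.prime_dvd_prime_iff_eq hr hqp).mp (hr.dvd_of_dvd_pow h)
      · rw [Subgroup.index_map_subtype, hK₁,
          Subgroup.index_comap_of_surjective _ (QuotientGroup.mk'_surjective Q')]
        refine hqp.not_dvd_mul hKbq ?_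
        -- `N₁` has index prime to `q`
        obtain ⟨Qt, hQt⟩ := hQp.exists_le_sylow
        obtain ⟨Q₂, hQ₂⟩ := Cfsg.Agent.Lib.Basic.SylowUtil.exists_sylow_inf_normal Qt N
        have hle : (Q₁ : Subgroup N) ≤ (Q₂ : Subgroup N) := by
          intro x hx
          have h1 : (x : X) ∈ (Q₂ : Subgroup N).map N.subtype := by
            rw [hQ₂]
            exact ⟨hQt ⟨x, hx, rfl⟩, x.2⟩
          obtain ⟨y, hy, hxy⟩ := h1
          have : y = x := Subtype.ext hxy
          rwa [← this]
        have heq : (Q₂ : Subgroup N) = Q₁ := Cfsg.Agent.Lib.Basic.SylowUtil.eq_of_sylow_le Q₂.2 Q₁ hle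
        have hQinf : Q = (Qt : Subgroup X) ⊓ N := by
          rw [← hQ₂, heq]
        have hQtN₁ : (Qt : Subgroup X) ≤ N₁ := by
          intro t ht
          rw [hN₁, Subgroup.mem_normalizer_iff]
          intro x
          rw [hQinf, Subgroup.mem_inf, Subgroup.mem_inf]
          constructor
          · rintro ⟨h1, h2⟩
            exact ⟨mul_mem (mul_mem ht h1) (inv_mem ht), hNn.conj_mem x h2 t⟩
          · rintro ⟨h1, h2⟩
            refine ⟨?_, ?_⟩
            · have := mul_mem (mul_mem (inv_mem ht) h1) ht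
              simpa [mul_assoc] using this
            · have := hNn.conj_mem _ h2 t⁻¹
              simpa [mul_assoc] using this
        have hdvd := Subgroup.index_dvd_of_le hQtN₁
        exact fun h => Qt.not_dvd_index (h.trans hdvd)
    · -- `N` is a `{p,q}'`-group
      obtain ⟨Kb, hKbS, hKbPQ, hKbq⟩ := ih _ (card_quotient_lt' N hNbot) (isPSolvable_quotient hpp N hX)
        (S.map (QuotientGroup.mk' N)) (hS.map _) rfl
      set L : Subgroup X := Kb.comap (QuotientGroup.mk' N) with hL
      have hNL : N ≤ L := by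
        intro x hx
        show QuotientGroup.mk' N x ∈ Kb
        have : QuotientGroup.mk' N x = 1 := (QuotientGroup.eq_one_iff x).mpr hx
        rw [this]
        exact Kb.one_mem
      have hSL : S ≤ L := fun s hs => hKbS ⟨s, hs, rfl⟩
      have hLcard : Nat.card L = Nat.card Kb * Nat.card N := card_comap_mk' N Kb
      have hLidx : L.index = Kb.index :=
        Subgroup.index_comap_of_surjective _ (QuotientGroup.mk'_surjective N)
      set N' : Subgroup L := N.subgroupOf L with hN'
      haveI : N'.Normal := Subgroup.Normal.subgroupOf hNn L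
      have hN'card : Nat.card N' = Nat.card N :=
        Nat.card_congr (Subgroup.subgroupOfEquivOfLe hNL).toEquiv
      have hNpos : 0 < Nat.card N := Nat.card_pos
      have hKbpos : 0 < Nat.card Kb := Nat.card_pos
      have hN'idx : N'.index = Nat.card Kb := by
        have h1 := Subgroup.card_mul_index N'
        rw [hN'card, hLcard, mul_comm (Nat.card Kb)] at h1
        exact Nat.eq_of_mul_eq_mul_left hNpos h1
      have hpN : ¬ p ∣ Nat.card N := fun h => by
        have := Nat.Coprime.eq_one_of_dvd hc.symm h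
        exact hpp.one_lt.ne' this
      have hcop : (Nat.card N').Coprime N'.index := by
        rw [hN'card, hN'idx]
        apply Nat.Coprime.symm
        apply Nat.coprime_of_dvd
        intro r hr h1 h2
        rcases hKbPQ r hr h1 with rfl | rfl
        · exact hpN h2
        · exact hqN h2
      obtain ⟨K₀, hK₀⟩ := Subgroup.exists_right_complement'_of_coprime hcop
      have hK₀card : Nat.card K₀ = Nat.card Kb := by
        have h1 := hK₀.card_mul_card
        rw [hN'card, hLcard, mul_comm (Nat.card Kb)] at h1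
        exact Nat.eq_of_mul_eq_mul_left hNpos h1
      have hK₀idx : K₀.index = Nat.card N := by
        have h1 := Subgroup.card_mul_index K₀
        rw [hK₀card, hLcard] at h1
        exact Nat.eq_of_mul_eq_mul_left hKbpos h1
      have hS' : IsPGroup p (S.subgroupOf L) := IsPGroup.comap_subtype hS
      obtain ⟨P, hP⟩ := hS'.exists_le_sylow
      obtain ⟨P₁⟩ : Nonempty (Sylow p K₀) := inferInstance
      have hpidx : ¬ p ∣ K₀.index := by rw [hK₀idx]; exact hpN
      obtain ⟨P₂, hP₂⟩ := Cfsg.Agent.Lib.Basic.SylowUtil.sylow_map_of_not_dvd_index hpidx P₁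
      obtain ⟨g, hg⟩ := Cfsg.Agent.Lib.Basic.SylowUtil.exists_conj_smul_eq P₂ P
      set K₁ : Subgroup L := K₀.map (MulAut.conj g).toMonoidHom with hK₁
      have hK₁card : Nat.card K₁ = Nat.card K₀ :=
        (Nat.card_congr (K₀.equivMapOfInjective _ (MulAut.conj g).injective).toEquiv).symm
      have hK₁idx : K₁.index = K₀.index := by
        have h1 := Subgroup.card_mul_index K₁
        have h2 := Subgroup.card_mul_index K₀
        rw [hK₁card] at h1
        exact Nat.eq_of_mul_eq_mul_left Nat.card_pos (h1.trans h2.symm)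
      have hPK₁ : (P : Subgroup L) ≤ K₁ := by
        rw [← hg, Subgroup.pointwise_smul_def, hK₁]
        apply Subgroup.map_mono
        rw [hP₂]
        rintro _ ⟨x, -, rfl⟩
        exact x.2
      refine ⟨K₁.map L.subtype, ?_, ?_, ?_⟩
      · intro s hs
        exact ⟨⟨s, hSL hs⟩, hPK₁ (hP hs), rfl⟩
      · intro r hr hd
        rw [Nat.card_congr (Subgroup.equivMapOfInjective K₁ L.subtype L.subtype_injective).toEquiv.symm,
          hK₁card, hK₀card] at hd
        exact hKbPQ r hr hd
      · rw [Subgroup.index_map_subtype, hK₁idx, hK₀idx, hLidx]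
        exact hqp.not_dvd_mul hqN hKbq

end Cfsg.Agent.Lib.AutoSyl.HallPQ
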