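import Cfsg.Agent.Lib.AutoSyl.Basic
import Mathlib

/-!
Transfer of the hypotheses and of the conclusion along a section `M / ker π` with `ker π` a `p`-group.
-/

set_option autoImplicit false

universe u

namespace Cfsg.Agent.Lib.AutoSyl.Section

open Cfsg Cfsg.Agent.Lib.Coprime.PSolvable Cfsg.Agent.Lib.AutoSyl.Basic

variable {G : Type*} [Group G] {p q : ℕ} {T : Type*} [Group T] (M : Subgroup G) (π : ↥M →* T)

/-- The preimage in `G` of a subgroup of the section. -/
def pre (R : Subgroup T) : Subgroup G := (R.comap π).map M.subtype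

variable {M π}

theorem mem_pre {R : Subgroup T} {x : G} : x ∈ pre M π R ↔ ∃ h : x ∈ M, π ⟨x, h⟩ ∈ R := by
  constructor
  · rintro ⟨m, hm, rfl⟩
    exact ⟨m.2, hm⟩
  · rintro ⟨h, hx⟩
    exact ⟨⟨x, h⟩, hx, rfl⟩

theorem pre_mono {R R' : Subgroup T} (h : R ≤ R') : pre M π R ≤ pre M π R' :=
  Subgroup.map_mono (Subgroup.comap_mono h)

theorem pre_isP (hk : IsPGroup p π.ker) {R : Subgroup T} (hR : IsPGroup p R) :
    IsPGroup p (pre M π R) :=
  (hR.comap_of_ker_isPGroup π hk).map _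

theorem normalizer_pre [Finite G] {R : Subgroup T} {n : ↥M}
    (hn : π n ∈ Subgroup.normalizer (R : Set T)) :
    (n : G) ∈ Subgroup.normalizer (pre M π R : Set G) := by
  apply Cfsg.Agent.Lib.Coprime.Three.mem_normalizer_of_conj_mem
  intro v hv
  obtain ⟨h, hx⟩ := mem_pre.mp hv
  refine mem_pre.mpr ⟨mul_mem (mul_mem n.2 h) (inv_mem n.2), ?_⟩
  have h1 : (⟨(n : G) * v * (n : G)⁻¹, mul_mem (mul_mem n.2 h) (inv_mem n.2)⟩ : ↥M) =
      n * ⟨v, h⟩ * n⁻¹ := rfl
  rw [h1, map_mul, map_mul, map_inv]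
  exact (Subgroup.mem_normalizer_iff.mp hn _).mp hx

theorem normalizer_of_pre (hπ : Function.Surjective π) [Finite T] {R : Subgroup T} {n : ↥M}
    (hn : (n : G) ∈ Subgroup.normalizer (pre M π R : Set G)) :
    π n ∈ Subgroup.normalizer (R : Set T) := by
  apply Cfsg.Agent.Lib.Coprime.Three.mem_normalizer_of_conj_mem
  intro v hv
  obtain ⟨m, rfl⟩ := hπ v
  have h1 : (m : G) ∈ pre M π R := mem_pre.mpr ⟨m.2, hv⟩
  have h2 := (Subgroup.mem_normalizer_iff.mp hn _).mp h1
  obtain ⟨h, hx⟩ := mem_pre.mp h2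
  have h3 : (⟨(n : G) * (m : G) * (n : G)⁻¹, h⟩ : ↥M) = n * m * n⁻¹ := rfl
  rw [h3, map_mul, map_mul, map_inv] at hx
  exact hx

theorem centralizer_of_pre (hπ : Function.Surjective π) {R : Subgroup T} {n : ↥M}
    (hn : (n : G) ∈ Subgroup.centralizer (pre M π R : Set G)) :
    π n ∈ Subgroup.centralizer (R : Set T) := by
  rw [Subgroup.mem_centralizer_iff]
  intro v hv
  obtain ⟨m, rfl⟩ := hπ v
  have h1 : (m : G) ∈ pre M π R := mem_pre.mpr ⟨m.2, hv⟩
  have h2 := Subgroup.mem_centralizer_iff.mp hn _ h1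
  have h3 : m * n = n * m := Subtype.ext h2
  rw [← map_mul, ← map_mul, h3]

/-- The automizer hypothesis descends to the section. -/
theorem hsol_transfer [Finite G] [Finite T] [hp : Fact p.Prime] (hπ : Function.Surjective π)
    (hk : IsPGroup p π.ker)
    (hsol : ∀ H : Subgroup G, IsPGroup p ↥H →
      Cfsg.IsPSolvable p (↥(Subgroup.normalizer (H : Set G)) ⧸
        (Subgroup.centralizer (H : Set G)).subgroupOf (Subgroup.normalizer (H : Set G))))
    (R : Subgroup T) (hR : IsPGroup p ↥R) :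
    Cfsg.IsPSolvable p (↥(Subgroup.normalizer (R : Set T)) ⧸
      (Subgroup.centralizer (R : Set T)).subgroupOf (Subgroup.normalizer (R : Set T))) := by
  set Rt : Subgroup G := pre M π R with hRt
  have hRtp : IsPGroup p Rt := pre_isP hk hR
  set B : Subgroup G := Subgroup.normalizer (Rt : Set G) ⊓ M with hB
  set Ct := (Subgroup.centralizer (Rt : Set G)).subgroupOf (Subgroup.normalizer (Rt : Set G)) with hCt
  set C' := (Subgroup.centralizer (R : Set T)).subgroupOf (Subgroup.normalizer (R : Set T)) with hC'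
  let f : ↥B →* (↥(Subgroup.normalizer (Rt : Set G)) ⧸ Ct) :=
    (QuotientGroup.mk' Ct).comp (Subgroup.inclusion inf_le_left)
  let g₀ : ↥B →* ↥(Subgroup.normalizer (R : Set T)) :=
    (π.comp (Subgroup.inclusion inf_le_right)).codRestrict _ (fun b =>
      normalizer_of_pre hπ (n := Subgroup.inclusion inf_le_right b) (Subgroup.mem_inf.mp b.2).1)
  let g : ↥B →* (↥(Subgroup.normalizer (R : Set T)) ⧸ C') := (QuotientGroup.mk' C').comp g₀
  refine isPSolvable_of_section f g ?_ ?_ (hsol Rt hRtp)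
  · intro y
    obtain ⟨nb, rfl⟩ := QuotientGroup.mk'_surjective C' y
    obtain ⟨n, hn⟩ := hπ nb
    have hn' : (n : G) ∈ Subgroup.normalizer (Rt : Set G) := by
      apply normalizer_pre
      rw [hn]
      exact nb.2
    refine ⟨⟨n, Subgroup.mem_inf.mpr ⟨hn', n.2⟩⟩, ?_⟩
    show QuotientGroup.mk' C' (g₀ _) = _
    congr 1
    exact Subtype.ext hn
  · intro b hb
    have h1 : (Subgroup.inclusion inf_le_left b : ↥(Subgroup.normalizer (Rt : Set G))) ∈ Ct :=
      (QuotientGroup.eq_one_iff _).mp hb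
    have h2 : (b : G) ∈ Subgroup.centralizer (Rt : Set G) := h1
    have h3 := centralizer_of_pre hπ (n := Subgroup.inclusion inf_le_right b) h2
    have h4 : g₀ b ∈ C' := h3
    show QuotientGroup.mk' C' (g₀ b) = 1
    exact (QuotientGroup.eq_one_iff _).mpr h4

/-- The family lifts from the section. -/
theorem Fam_lift [Finite G] [Finite T] [hq : Fact q.Prime] (hπ : Function.Surjective π)
    (hk : IsPGroup p π.ker) {K S : Subgroup T} (h : Fam p q K S) :
    Fam p q (pre M π K) (pre M π S) := by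
  obtain ⟨h1, h2, h3, z, hzN, hzC, m, hm⟩ := h
  refine ⟨pre_isP hk h1, pre_mono h2, ?_, ?_⟩
  · intro s hs
    obtain ⟨h, hx⟩ := mem_pre.mp hs
    exact normalizer_pre (n := ⟨s, h⟩) (h3 hx)
  · obtain ⟨n, rfl⟩ := hπ z
    obtain ⟨k, hk₁, hk₂⟩ := exists_q_part π n hm
    refine ⟨((n ^ k : ↥M) : G), normalizer_pre (by rwa [hk₁]), ?_, hk₂.map M.subtype⟩
    intro hc
    apply hzC
    rw [← hk₁]
    exact centralizer_of_pre hπ hc

/-- A `q`-element centralizing a normal `p`-section acts nontrivially on the image. -/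
theorem Mv_descend [Finite G] [Finite T] [hp : Fact p.Prime] (hpq : p ≠ q) (W H : Subgroup G)
    (hWp : IsPGroup p W) (hker : ∀ m : ↥M, π m = 1 → (m : G) ∈ W) (hHM : H ≤ M) {y : G} (hyM : y ∈ M)
    (hy : Mv q H y) (hyW : y ∈ Subgroup.centralizer (W : Set G)) [hq : Fact q.Prime] :
    Mv q ((H.subgroupOf M).map π) (π ⟨y, hyM⟩) := by
  obtain ⟨h1, h2, h3⟩ := hy
  refine ⟨?_, ?_, ?_⟩
  · apply Cfsg.Agent.Lib.Coprime.Three.mem_normalizer_of_conj_mem
    rintro _ ⟨k, hk, rfl⟩
    refine ⟨⟨y, hyM⟩ * k * ⟨y, hyM⟩⁻¹, ?_, by rw [map_mul, map_mul, map_inv]⟩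
    exact (Subgroup.mem_normalizer_iff.mp h1 _).mp hk
  · intro hc
    apply h2
    rw [Subgroup.mem_centralizer_iff]
    intro h hh
    -- the commutator lies in `W`
    set hm : ↥M := ⟨h, hHM hh⟩ with hhm
    set ym : ↥M := ⟨y, hyM⟩ with hym
    have hc1 := Subgroup.mem_centralizer_iff.mp hc (π hm) ⟨hm, hh, rfl⟩
    have hc2 : π (ym * hm * ym⁻¹ * hm⁻¹) = 1 := by
      rw [map_mul, map_mul, map_mul, map_inv, map_inv, ← hc1]
      group
    set w : G := y * h * y⁻¹ * h⁻¹ with hw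
    have hwW : w ∈ W := hker _ hc2
    have hyw : y * w = w * y := (Subgroup.mem_centralizer_iff.mp hyW w hwW).symm
    have hpow : ∀ n : ℕ, y ^ n * h * (y ^ n)⁻¹ = w ^ n * h := by
      intro n
      induction n with
      | zero => simp
      | succ n ih =>
        have h5 : y * (w ^ n) = (w ^ n) * y := ((Commute.pow_right (show Commute y w from hyw) n)).eq
        calc y ^ (n + 1) * h * (y ^ (n + 1))⁻¹ = y * (y ^ n * h * (y ^ n)⁻¹) * y⁻¹ := by
              rw [pow_succ']; group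
          _ = y * (w ^ n * h) * y⁻¹ := by rw [ih]
          _ = w ^ n * (y * h * y⁻¹) := by
              rw [← mul_assoc, h5]; group
          _ = w ^ n * (w * h) := by rw [hw]; group
          _ = w ^ (n + 1) * h := by rw [pow_succ]; group
    obtain ⟨m, hm'⟩ := h3
    have h6 := hpow (q ^ m)
    rw [hm'] at h6
    have h7 : w ^ q ^ m = 1 := by
      simpa using h6.symm
    obtain ⟨a, ha⟩ := hWp ⟨w, hwW⟩
    have ha' : w ^ p ^ a = 1 := by simpa using congrArg Subtype.val ha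
    have h8 : w = 1 := eq_one_of_QE_of_pow ((Nat.coprime_primes hp.out hq.out).mpr hpq) ⟨m, h7⟩ ha'
    have h9 : y * h * y⁻¹ * h⁻¹ = 1 := h8
    have h10 : y * h * y⁻¹ = h := by
      rw [mul_inv_eq_one] at h9
      exact h9
    rw [mul_inv_eq_iff_eq_mul] at h10
    exact h10.symm
  · obtain ⟨m, hm⟩ := h3
    refine ⟨m, ?_⟩
    rw [← map_pow]
    have : (⟨y, hyM⟩ : ↥M) ^ q ^ m = 1 := Subtype.ext (by simpa using hm)
    rw [this, map_one]

end Cfsg.Agent.Lib.AutoSyl.Section
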