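import Cfsg.Agent.Lib.AutoSyl.HallPQ
import Cfsg.Agent.Lib.Basic.PCore
import Cfsg.Agent.Lib.Solvable.PSeries
import Cfsg.Agent.Lib.Components.PComponent
import Cfsg.Agent.Lib.PSL2.Basic
import Cfsg.Agent.S0609
import Cfsg.Agent.S0618
import Mathlib

/-!
A group `Γ` with a normal subgroup `C` whose Sylow `p`-subgroups are central in `C`, with `Γ / C` a
`p`-soluble `{p, q}`-group (`{p, q} ≠ {2, 3}`), is Thompson factorizable.
-/

set_option autoImplicit false

universe u

namespace Cfsg.Agent.Lib.AutoSyl.Thompson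

open Cfsg Cfsg.Agent.Lib.Coprime.PSolvable Cfsg.Agent.Lib.AutoSyl.HallPQ

variable {p q : ℕ} [hp : Fact p.Prime] [hq : Fact q.Prime]

/-- With a central Sylow `p`-subgroup, `O_{p'}` has `p`-power index. -/
theorem index_pPrimeCore_of_central {Γ : Type*} [Group Γ] [Finite Γ] (Q : Sylow p Γ)
    (hQ : ∀ a ∈ (Q : Subgroup Γ), ∀ c : Γ, a * c = c * a) :
    ∃ k : ℕ, (pPrimeCore p Γ).index = p ^ k := by
  have hN : Subgroup.normalizer (Q : Set Γ) ≤ Subgroup.centralizer (Q : Set Γ) := by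
    intro g _
    rw [Subgroup.mem_centralizer_iff]
    intro a ha
    exact hQ a ha g
  have hcomp := MonoidHom.ker_transferSylow_isComplement' Q hN
  have hnd := MonoidHom.not_dvd_card_ker_transferSylow Q hN
  have hcop : (Nat.card (MonoidHom.transferSylow Q hN).ker).Coprime p :=
    ((Nat.Prime.coprime_iff_not_dvd hp.out).mpr hnd).symm
  have hle : (MonoidHom.transferSylow Q hN).ker ≤ pPrimeCore p Γ :=
    Cfsg.Agent.Lib.Basic.PCore.le_pPrimeCore inferInstance hcop
  obtain ⟨k, hk⟩ := IsPGroup.iff_card.mp Q.2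
  have h1 : (MonoidHom.transferSylow Q hN).ker.index = Nat.card Q := hcomp.symm.index_eq_card
  have hd : (pPrimeCore p Γ).index ∣ (MonoidHom.transferSylow Q hN).ker.index :=
    Subgroup.index_dvd_of_le hle
  rw [h1, hk] at hd
  obtain ⟨j, _, hj⟩ := (Nat.dvd_prime_pow hp.out).mp hd
  exact ⟨j, hj⟩

theorem thompsonStep (hpq : p ≠ q) (h23 : ¬ ((p = 2 ∧ q = 3) ∨ (p = 3 ∧ q = 2)))
    {Γ : Type u} [Group Γ] [Finite Γ] (C : Subgroup Γ) [hCn : C.Normal]
    (hsolv : IsPSolvable p (Γ ⧸ C)) (hidx : PQ p q C.index) (P : Sylow p Γ)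
    (hcen : ∀ a ∈ (P : Subgroup Γ) ⊓ C, ∀ c ∈ C, a * c = c * a) :
    IsThompsonFactorizable p Γ := by
  have hpp : p.Prime := hp.out
  obtain ⟨Q, hQ⟩ := Cfsg.Agent.Lib.Basic.SylowUtil.exists_sylow_inf_normal P C
  have hQc : ∀ a ∈ (Q : Subgroup C), ∀ c : C, a * c = c * a := by
    intro a ha c
    have h1 : (a : Γ) ∈ (P : Subgroup Γ) ⊓ C := by rw [← hQ]; exact ⟨a, ha, rfl⟩
    exact Subtype.ext (hcen a h1 c c.2)
  obtain ⟨k, hk⟩ := index_pPrimeCore_of_central Q hQc
  haveI hchar : (pPrimeCore p C).Characteristic :=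
    Cfsg.Agent.Lib.Solvable.PSeries.pPrimeCore_char p C
  set L : Subgroup Γ := (pPrimeCore p C).map C.subtype with hL
  haveI hLn : L.Normal := Cfsg.Agent.Lib.Basic.PCore.map_subtype_normal_of_characteristic _
  have hLcop : (Nat.card L).Coprime p := by
    rw [hL, Nat.card_congr (Subgroup.equivMapOfInjective _ C.subtype C.subtype_injective).toEquiv.symm]
    exact Cfsg.Agent.Lib.Components.Transport.coprime_card_pPrimeCore p
  have hLO : L ≤ pPrimeCore p Γ := Cfsg.Agent.Lib.Basic.PCore.le_pPrimeCore hLn hLcop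
  have hLC : L ≤ C := by
    rintro _ ⟨x, -, rfl⟩
    exact x.2
  have hLsub : L.subgroupOf C = pPrimeCore p C := by
    rw [hL]
    exact Subgroup.comap_map_eq_self_of_injective C.subtype_injective _
  have hLCidx : L.relIndex C = p ^ k := by
    rw [Subgroup.relIndex, hLsub, hk]
  have hLidx : L.index = p ^ k * C.index := by
    rw [← hLCidx, Subgroup.relIndex_mul_index hLC]
  -- `Γ` is `p`-soluble
  have hΓL : IsPSolvable p (Γ ⧸ L) := by
    refine isPSolvable_of_normal_good (C.map (QuotientGroup.mk' L)) (Or.inl ⟨k, ?_⟩) ?_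
    · rw [← hLCidx]
      exact Cfsg.Agent.Lib.Solvable.PSeries.card_map_mk' L C
    · refine isPSolvable_of_surjective hpp
        (QuotientGroup.map C (C.map (QuotientGroup.mk' L)) (QuotientGroup.mk' L)
          (Subgroup.le_comap_map _ _)) ?_ hsolv
      intro y
      induction y using QuotientGroup.induction_on with
      | H y =>
        induction y using QuotientGroup.induction_on with
        | H g => exact ⟨QuotientGroup.mk g, rfl⟩
  have hΓ : IsPSolvable p Γ := isPSolvable_of_normal_good L (Or.inr hLcop) hΓL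
  set O := pPrimeCore p Γ with hO
  have hY : IsPSolvable p (Γ ⧸ O) := isPSolvable_quotient hpp O hΓ
  have hOb : pPrimeCore p (Γ ⧸ O) = ⊥ :=
    Cfsg.Agent.Lib.Components.PComponent.pPrimeCore_quotient_eq_bot p
  have hprimes : ∀ r : ℕ, r.Prime → r ∣ Nat.card (Γ ⧸ O) → r = p ∨ r = q := by
    intro r hr hd
    have h1 : Nat.card (Γ ⧸ O) ∣ L.index := Subgroup.index_dvd_of_le hLO
    have h2 := hd.trans h1
    rw [hLidx] at h2
    rcases (Nat.Prime.dvd_mul hr).mp h2 with h | h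
    · exact Or.inl ((Nat.prime_dvd_prime_iff_eq hr hpp).mp (hr.dvd_of_dvd_pow h))
    · exact hidx r hr h
  rw [Cfsg.Agent.S0609.result]
  by_contra hnf
  obtain ⟨hp23, E, -, -, -, hn, ⟨e⟩⟩ := Cfsg.Agent.S0618.result hY hOb hnf
  have hcardE : Nat.card (Matrix.SpecialLinearGroup (Fin 2) (ZMod p)) ∣ Nat.card (Γ ⧸ O) := by
    rw [← Nat.card_congr e.toEquiv]
    exact (Subgroup.index_dvd_card _).trans (Subgroup.card_subgroup_dvd_card E)
  have hcS : Nat.card (Matrix.SpecialLinearGroup (Fin 2) (ZMod p)) = p * (p ^ 2 - 1) := by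
    have h := Cfsg.Agent.Lib.PSL2.Basic.card_SL2 (F := ZMod p)
    rwa [ZMod.card] at h
  rw [hcS] at hcardE
  rcases hp23 with h2 | h3
  · subst h2
    have h3 : (3 : ℕ) ∣ Nat.card (Γ ⧸ O) := (by norm_num : (3 : ℕ) ∣ 2 * (2 ^ 2 - 1)).trans hcardE
    rcases hprimes 3 (by norm_num) h3 with h | h
    · omega
    · exact h23 (Or.inl ⟨rfl, h.symm⟩)
  · subst h3
    have h2 : (2 : ℕ) ∣ Nat.card (Γ ⧸ O) := (by norm_num : (2 : ℕ) ∣ 3 * (3 ^ 2 - 1)).trans hcardE
    rcases hprimes 2 (by norm_num) h2 with h | h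
    · omega
    · exact h23 (Or.inr ⟨rfl, h.symm⟩)

end Cfsg.Agent.Lib.AutoSyl.Thompson
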